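import Mathlib
import Cfsg.Agent.Lib.Lead.PmQ

set_option autoImplicit false

namespace Cfsg.Agent.Lib.Lead

open scoped Pointwise commutatorElement

universe u

theorem exists_mem_normalizer_not_mem_nilpotent {G : Type*} [Group G] [Finite G]
    (S D : Subgroup G) (hS : Group.IsNilpotent S) (hDS : D ≤ S) (hne : D ≠ S) :
    ∃ s ∈ S, s ∈ Subgroup.normalizer (D : Set G) ∧ s ∉ D := by
  have hlt : D.subgroupOf S < ⊤ := by
    rw [lt_top_iff_ne_top]
    intro h
    apply hne
    apply le_antisymm hDS
    rw [Subgroup.subgroupOf_eq_top] at h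
    exact h
  have h2 := Group.normalizerCondition_of_isNilpotent (G := ↥S) (D.subgroupOf S) hlt
  obtain ⟨s, hsN, hsP⟩ := SetLike.exists_of_lt h2
  refine ⟨s, s.2, ?_, fun h => hsP h⟩
  apply mem_normalizer_of_conj_mem
  intro x hx
  exact (Subgroup.mem_normalizer_iff.mp hsN ⟨x, hDS hx⟩).mp hx

theorem isSolvable_of_subgroups_trivial {X : Type*} [Group X]
    (h : ∀ K : Subgroup X, K = ⊥ ∨ K = ⊤) : Group.IsSolvable X := by
  apply Group.isSolvable_of_comm
  intro a b
  rcases h (Subgroup.zpowers a) with h1 | h1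
  · have ha : a = 1 := by rw [← Subgroup.zpowers_eq_bot]; exact h1
    rw [ha, one_mul, mul_one]
  · have hb : b ∈ Subgroup.zpowers a := by rw [h1]; trivial
    obtain ⟨k, rfl⟩ := Subgroup.mem_zpowers_iff.mp hb
    rw [← zpow_one_add, ← zpow_add_one, add_comm]

theorem isCoatom_conj_smul {G : Type*} [Group G] {M : Subgroup G} (hM : IsCoatom M) (g : G) :
    IsCoatom (MulAut.conj g • M) := by
  have key : ∀ (h : G) (A B : Subgroup G), A ≤ B → MulAut.conj h • A ≤ MulAut.conj h • B := by
    intro h A B hAB x hx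
    rw [mem_conj_smul] at hx ⊢
    exact hAB hx
  have inv : ∀ (h : G) (A : Subgroup G), MulAut.conj h⁻¹ • (MulAut.conj h • A) = A := by
    intro h A
    rw [← conj_mul_smul, inv_mul_cancel]
    ext x
    rw [mem_conj_smul]
    simp
  have inv' : ∀ (h : G) (A : Subgroup G), MulAut.conj h • (MulAut.conj h⁻¹ • A) = A := by
    intro h A
    have := inv h⁻¹ A
    rw [inv_inv] at this
    exact this
  have htop : ∀ h : G, MulAut.conj h • (⊤ : Subgroup G) = ⊤ := by
    intro h
    ext x
    rw [mem_conj_smul]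
    simp
  constructor
  · intro h
    apply hM.1
    rw [← inv g M, h, htop]
  · intro L hL
    have h1 : M < MulAut.conj g⁻¹ • L := by
      apply lt_of_le_of_ne
      · rw [← inv g M]; exact key _ _ _ hL.le
      · intro h
        apply hL.ne
        rw [h, inv']
    have h2 := hM.2 _ h1
    rw [← inv' g L, h2, htop]

/-- Schmidt: a finite group all of whose maximal subgroups are nilpotent is solvable. -/
theorem schmidt : ∀ (n : ℕ) (G : Type u) [Group G] [Finite G], Nat.card G = n →
    (∀ M : Subgroup G, IsCoatom M → Group.IsNilpotent M) → Group.IsSolvable G := by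
  intro n
  induction n using Nat.strong_induction_on with
  | _ n ih =>
  intro G _ _ hn hmax
  by_contra hns
  have hsimple : ∀ N : Subgroup G, N.Normal → N = ⊥ ∨ N = ⊤ := by
    intro N hN
    by_contra hcon
    push Not at hcon
    obtain ⟨hNbot, hNtop⟩ := hcon
    apply hns
    obtain ⟨M, hM, hNM⟩ := (eq_top_or_exists_le_coatom N).resolve_left hNtop
    have hMs : Group.IsSolvable M := by
      have := hmax M hM
      infer_instance
    have hNs : Group.IsSolvable N :=
      Group.isSolvable_of_isSolvable_injective (Subgroup.inclusion_injective hNM)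
    have hQs : Group.IsSolvable (G ⧸ N) := by
      apply ih (Nat.card (G ⧸ N)) (by rw [← hn]; exact card_quotient_lt N hNbot) (G ⧸ N) rfl
      intro Mq hMq
      have hsurj := QuotientGroup.mk'_surjective N
      have hc : IsCoatom (Mq.comap (QuotientGroup.mk' N)) := by
        constructor
        · intro h
          apply hMq.1
          rw [← Subgroup.map_comap_eq_self_of_surjective hsurj Mq, h,
            Subgroup.map_top_of_surjective _ hsurj]
        · intro L hL
          have hNL : N ≤ L := by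
            refine le_trans ?_ hL.le
            intro x hx
            rw [Subgroup.mem_comap, QuotientGroup.mk'_apply, (QuotientGroup.eq_one_iff x).mpr hx]
            exact Mq.one_mem
          have h3 : (L.map (QuotientGroup.mk' N)).comap (QuotientGroup.mk' N) = L := by
            rw [Subgroup.comap_map_eq, QuotientGroup.ker_mk', sup_eq_left.mpr hNL]
          have h1 : Mq < L.map (QuotientGroup.mk' N) := by
            apply lt_of_le_of_ne
            · rw [← Subgroup.map_comap_eq_self_of_surjective hsurj Mq]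
              exact Subgroup.map_mono hL.le
            · intro h
              apply hL.ne
              rw [h, h3]
          have h2 := hMq.2 _ h1
          rw [← h3, h2, Subgroup.comap_top]
      have hnil := hmax _ hc
      exact Group.nilpotent_of_surjective ((QuotientGroup.mk' N).subgroupComap Mq)
        (MonoidHom.subgroupComap_surjective_of_surjective _ Mq hsurj)
    exact isSolvable_of_normal N hNs hQs
  have hbot_not_coatom : ¬ IsCoatom (⊥ : Subgroup G) := by
    intro h
    apply hns
    apply isSolvable_of_subgroups_trivial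
    intro K
    by_cases hK : K = ⊥
    · left; exact hK
    · right; exact h.2 K (bot_lt_iff_ne_bot.mpr hK)
  have hself : ∀ M : Subgroup G, IsCoatom M → Subgroup.normalizer (M : Set G) = M := by
    intro M hM
    by_contra hne
    have h1 : M < Subgroup.normalizer (M : Set G) :=
      lt_of_le_of_ne Subgroup.le_normalizer (Ne.symm hne)
    have h2 := hM.2 _ h1
    have hMn : M.Normal := Subgroup.normalizer_eq_top_iff.mp h2
    rcases hsimple M hMn with h3 | h3
    · rw [h3] at hM; exact hbot_not_coatom hM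
    · exact hM.1 h3
  have hTI : ∀ M1 M2 : Subgroup G, IsCoatom M1 → IsCoatom M2 → M1 ≠ M2 → M1 ⊓ M2 = ⊥ := by
    by_contra hcon
    push Not at hcon
    obtain ⟨A1, A2, hA1, hA2, hAne, hAD⟩ := hcon
    haveI : Nonempty {q : Subgroup G × Subgroup G // IsCoatom q.1 ∧ IsCoatom q.2 ∧ q.1 ≠ q.2} :=
      ⟨⟨(A1, A2), hA1, hA2, hAne⟩⟩
    obtain ⟨⟨⟨M1, M2⟩, hM1, hM2, hne⟩, hmaxD⟩ := Finite.exists_max
      (fun q : {q : Subgroup G × Subgroup G // IsCoatom q.1 ∧ IsCoatom q.2 ∧ q.1 ≠ q.2} =>
        Nat.card (q.1.1 ⊓ q.1.2 : Subgroup G))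
    simp only at hM1 hM2 hne
    have hDbot : M1 ⊓ M2 ≠ ⊥ := by
      intro h
      have h1 := hmaxD ⟨(A1, A2), hA1, hA2, hAne⟩
      simp only at h1
      rw [h, Subgroup.card_bot] at h1
      exact hAD (Subgroup.card_eq_one.mp (le_antisymm h1 Nat.card_pos))
    have hNtop : Subgroup.normalizer ((M1 ⊓ M2 : Subgroup G) : Set G) ≠ ⊤ := by
      intro h
      have hDn : (M1 ⊓ M2).Normal := Subgroup.normalizer_eq_top_iff.mp h
      rcases hsimple _ hDn with h3 | h3
      · exact hDbot h3
      · apply hM1.1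
        rw [eq_top_iff, ← h3]
        exact inf_le_left
    obtain ⟨M, hM, hNM⟩ := (eq_top_or_exists_le_coatom _).resolve_left hNtop
    have aux : ∀ M' M'' : Subgroup G, IsCoatom M' → IsCoatom M'' → M' ≠ M'' →
        M1 ⊓ M2 ≤ M' → M1 ⊓ M2 ≤ M'' → M = M' := by
      intro M' M'' hM' hM'' hne' hD' hD''
      by_contra hMM'
      have hDne : M1 ⊓ M2 ≠ M' := by
        intro h
        have h1 : M' ≤ M'' := by rw [← h]; exact hD''
        exact hM''.1 (hM'.2 _ (lt_of_le_of_ne h1 hne'))
      obtain ⟨s, hsM', hsN, hsD⟩ := exists_mem_normalizer_not_mem_nilpotent M' (M1 ⊓ M2)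
        (hmax M' hM') hD' hDne
      have h1 := hmaxD ⟨(M, M'), hM, hM', hMM'⟩
      simp only at h1
      have h2 : M1 ⊓ M2 ≤ M ⊓ M' := le_inf (Subgroup.le_normalizer.trans hNM) hD'
      have h3 : M1 ⊓ M2 ≠ M ⊓ M' := by
        intro h; apply hsD; rw [h]; exact ⟨hNM hsN, hsM'⟩
      exact absurd h1 (not_le.mpr (card_lt_of_lt h2 h3))
    have e1 := aux M1 M2 hM1 hM2 hne inf_le_left inf_le_right
    have e2 := aux M2 M1 hM2 hM1 (Ne.symm hne) inf_le_right inf_le_left
    exact hne (e1.symm.trans e2)
  have hfrob : ∀ M : Subgroup G, IsCoatom M → Cfsg.IsFrobeniusComplement M := by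
    intro M hM
    refine ⟨fun h => hbot_not_coatom (h ▸ hM), hM.1, ?_⟩
    intro g hg
    apply hTI M _ hM (isCoatom_conj_smul hM g)
    intro h
    apply hg
    rw [← hself M hM]
    apply mem_normalizer_of_conj_mem
    intro x hx
    have hmem : g * x * g⁻¹ ∈ MulAut.conj g • M := by
      rw [mem_conj_smul]
      have e : g⁻¹ * (g * x * g⁻¹) * g = x := by group
      rw [e]; exact hx
    rw [h]; exact hmem
  have hidx : ∀ M : Subgroup G, IsCoatom M → 2 ≤ M.index ∧ 2 * M.index ≤ Nat.card G := by
    intro M hM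
    have h1 : M.index ≠ 1 := fun h => hM.1 (Subgroup.index_eq_one.mp h)
    have h0 : M.index ≠ 0 := Subgroup.index_ne_zero_of_finite
    have h2 : Nat.card M ≠ 1 := fun h => hbot_not_coatom (Subgroup.card_eq_one.mp h ▸ hM)
    have h3 : 0 < Nat.card M := Nat.card_pos
    have h4 := Subgroup.card_mul_index M
    refine ⟨by omega, ?_⟩
    rw [← h4]
    exact Nat.mul_le_mul_right _ (by omega)
  obtain ⟨M, hM⟩ : ∃ M : Subgroup G, IsCoatom M := by
    have hnt : (⊥ : Subgroup G) ≠ ⊤ := by
      intro h
      apply hns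
      apply isSolvable_of_subgroups_trivial
      intro K; left; rw [eq_bot_iff, h]; exact le_top
    obtain ⟨M, hM, -⟩ := (eq_top_or_exists_le_coatom (⊥ : Subgroup G)).resolve_left hnt
    exact ⟨M, hM⟩
  have hK := frob_card_kernel M (hfrob M hM)
  have hx : ∃ x ∈ Cfsg.frobeniusKernel M, x ≠ 1 := by
    by_contra hcon
    push Not at hcon
    have hsub : Cfsg.frobeniusKernel M ⊆ {1} := fun x hx => hcon x hx
    have h1 : (Cfsg.frobeniusKernel M).ncard ≤ 1 := by
      have h0 := Set.ncard_le_ncard hsub (Set.finite_singleton 1)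
      rwa [Set.ncard_singleton] at h0
    rw [← Nat.card_coe_set_eq, hK] at h1
    have := (hidx M hM).1
    omega
  obtain ⟨x, hxK, hx1⟩ := hx
  have hzx : Subgroup.zpowers x ≠ ⊤ := by
    intro h
    apply hns
    apply Group.isSolvable_of_comm
    intro a b
    have ha : a ∈ Subgroup.zpowers x := by rw [h]; trivial
    have hb : b ∈ Subgroup.zpowers x := by rw [h]; trivial
    obtain ⟨i, rfl⟩ := Subgroup.mem_zpowers_iff.mp ha
    obtain ⟨j, rfl⟩ := Subgroup.mem_zpowers_iff.mp hb
    rw [← zpow_add, ← zpow_add, add_comm]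
  obtain ⟨M', hM', hxM'⟩ := (eq_top_or_exists_le_coatom _).resolve_left hzx
  have hxM'' : x ∈ M' := hxM' (Subgroup.mem_zpowers x)
  have hK' := frob_card_kernel M' (hfrob M' hM')
  have hcover : Cfsg.frobeniusKernel M ∪ Cfsg.frobeniusKernel M' = Set.univ := by
    rw [Set.eq_univ_iff_forall]
    intro y
    by_contra hy
    rw [Set.mem_union, not_or] at hy
    obtain ⟨hy1, hy2⟩ := hy
    rw [not_mem_frobeniusKernel_iff] at hy1 hy2
    obtain ⟨hyne, g, hg⟩ := hy1
    obtain ⟨-, g', hg'⟩ := hy2
    have heq : MulAut.conj g • M = MulAut.conj g' • M' := by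
      by_contra hne
      have h0 := hTI _ _ (isCoatom_conj_smul hM g) (isCoatom_conj_smul hM' g') hne
      have hy' : y ∈ MulAut.conj g • M ⊓ MulAut.conj g' • M' := ⟨hg, hg'⟩
      rw [h0, Subgroup.mem_bot] at hy'
      exact hyne hy'
    have h1 : g' * x * g'⁻¹ ∈ MulAut.conj g' • M' := by
      rw [mem_conj_smul]
      have e : g'⁻¹ * (g' * x * g'⁻¹) * g' = x := by group
      rw [e]; exact hxM''
    rw [← heq, mem_conj_smul] at h1
    have h2 : x ∈ MulAut.conj (g'⁻¹ * g) • M := by
      rw [mem_conj_smul]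
      have e : (g'⁻¹ * g)⁻¹ * x * (g'⁻¹ * g) = g⁻¹ * (g' * x * g'⁻¹) * g := by group
      rw [e]; exact h1
    rcases hxK with hx | hx
    · exact hx1 hx
    · exact hx _ h2
  have hc1 := Set.ncard_union_add_ncard_inter (Cfsg.frobeniusKernel M) (Cfsg.frobeniusKernel M')
  rw [hcover, Set.ncard_univ] at hc1
  have hone : 1 ≤ (Cfsg.frobeniusKernel M ∩ Cfsg.frobeniusKernel M').ncard := by
    rw [Nat.succ_le_iff, Set.ncard_pos]
    exact ⟨1, Or.inl rfl, Or.inl rfl⟩
  have e1 : (Cfsg.frobeniusKernel M).ncard = M.index := by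
    rw [← Nat.card_coe_set_eq]; exact hK
  have e2 : (Cfsg.frobeniusKernel M').ncard = M'.index := by
    rw [← Nat.card_coe_set_eq]; exact hK'
  rw [e1, e2] at hc1
  have := (hidx M hM).2
  have := (hidx M' hM').2
  omega

end Cfsg.Agent.Lib.Lead
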