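import Mathlib
import Cfsg.Prelude.Def_Transfer

set_option autoImplicit false

namespace Cfsg.Agent.Lib.Lead

open scoped IsMulCommutative

/-- `e ↦ u e u⁻¹ e⁻¹` as a homomorphism into the center, when commutators are central. -/
def commHomLead {E : Type*} [Group E]
    (hcc : ∀ u e : E, u * e * u⁻¹ * e⁻¹ ∈ Subgroup.center E) (u : E) : E →* Subgroup.center E :=
  MonoidHom.mk' (fun e => ⟨u * e * u⁻¹ * e⁻¹, hcc u e⟩) (by
    intro e e'
    apply Subtype.ext
    show u * (e * e') * u⁻¹ * (e * e')⁻¹ = (u * e * u⁻¹ * e⁻¹) * (u * e' * u⁻¹ * e'⁻¹)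
    have h1 : (u * e' * u⁻¹ * e'⁻¹) * e⁻¹ = e⁻¹ * (u * e' * u⁻¹ * e'⁻¹) :=
      (Subgroup.mem_center_iff.mp (hcc u e') e⁻¹).symm
    calc u * (e * e') * u⁻¹ * (e * e')⁻¹
        = u * e * u⁻¹ * ((u * e' * u⁻¹ * e'⁻¹) * e⁻¹) := by group
      _ = u * e * u⁻¹ * (e⁻¹ * (u * e' * u⁻¹ * e'⁻¹)) := by rw [h1]
      _ = (u * e * u⁻¹ * e⁻¹) * (u * e' * u⁻¹ * e'⁻¹) := by group)

theorem commHomLead_apply {E : Type*} [Group E]
    (hcc : ∀ u e : E, u * e * u⁻¹ * e⁻¹ ∈ Subgroup.center E) (u e : E) :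
    ((commHomLead hcc u e : Subgroup.center E) : E) = u * e * u⁻¹ * e⁻¹ := rfl

/-- `u ↦ (e ↦ u e u⁻¹ e⁻¹)` as a homomorphism, when commutators are central. -/
def commHomHomLead {E : Type*} [Group E]
    (hcc : ∀ u e : E, u * e * u⁻¹ * e⁻¹ ∈ Subgroup.center E) : E →* (E →* Subgroup.center E) :=
  MonoidHom.mk' (commHomLead hcc) (by
    intro u u'
    apply MonoidHom.ext
    intro e
    apply Subtype.ext
    show (u * u') * e * (u * u')⁻¹ * e⁻¹ = (u * e * u⁻¹ * e⁻¹) * (u' * e * u'⁻¹ * e⁻¹)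
    have h1 : (u' * e * u'⁻¹ * e⁻¹) * (e * u⁻¹ * e⁻¹) =
        (e * u⁻¹ * e⁻¹) * (u' * e * u'⁻¹ * e⁻¹) :=
      (Subgroup.mem_center_iff.mp (hcc u' e) (e * u⁻¹ * e⁻¹)).symm
    calc (u * u') * e * (u * u')⁻¹ * e⁻¹
        = u * ((u' * e * u'⁻¹ * e⁻¹) * (e * u⁻¹ * e⁻¹)) := by group
      _ = u * ((e * u⁻¹ * e⁻¹) * (u' * e * u'⁻¹ * e⁻¹)) := by rw [h1]
      _ = (u * e * u⁻¹ * e⁻¹) * (u' * e * u'⁻¹ * e⁻¹) := by group)

/-- Central automorphisms of an extraspecial group are inner. -/
theorem extraspecial_central_aut {E : Type*} [Group E] [Finite E] {p : ℕ} [Fact p.Prime]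
    (hE : Cfsg.IsExtraspecial p E) (φ : E →* E) (hφ : ∀ e, φ e * e⁻¹ ∈ Subgroup.center E) :
    ∃ u : E, ∀ e, φ e = u * e * u⁻¹ := by
  classical
  have hp : p.Prime := Fact.out
  obtain ⟨⟨hpg, hfrat, hcomm⟩, hZcard⟩ := hE
  have hcc : ∀ u e : E, u * e * u⁻¹ * e⁻¹ ∈ Subgroup.center E := by
    intro u e
    rw [← hcomm, commutator_def]
    exact Subgroup.commutator_mem_commutator (Subgroup.mem_top u) (Subgroup.mem_top e)
  have hker : (commHomHomLead hcc).ker = Subgroup.center E := by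
    ext u
    rw [MonoidHom.mem_ker, Subgroup.mem_center_iff]
    constructor
    · intro h e
      have h1 : ((commHomLead hcc u e : Subgroup.center E) : E) = 1 := by
        have h2 : commHomLead hcc u = 1 := h
        rw [h2]; rfl
      rw [commHomLead_apply] at h1
      have h3 : u * e = e * u := by
        calc u * e = (u * e * u⁻¹ * e⁻¹) * (e * u) := by group
          _ = e * u := by rw [h1, one_mul]
      exact h3.symm
    · intro h
      apply MonoidHom.ext
      intro e
      apply Subtype.ext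
      show u * e * u⁻¹ * e⁻¹ = 1
      rw [← h e]; group
  haveI hZprime : Fact (Nat.card (Subgroup.center E)).Prime := ⟨by rw [hZcard]; exact hp⟩
  obtain ⟨z₀, hz₀⟩ : ∃ z₀ : Subgroup.center E, z₀ ≠ 1 := by
    haveI : Nontrivial (Subgroup.center E) :=
      Finite.one_lt_card_iff_nontrivial.mp (by rw [hZcard]; exact hp.one_lt)
    exact exists_ne 1
  obtain ⟨ι, hι⟩ :=
    CommGroup.exists_apply_ne_one_of_hasEnoughRootsOfUnity (Subgroup.center E) ℂ hz₀
  have hιinj : Function.Injective ι := by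
    rw [← MonoidHom.ker_eq_bot_iff]
    rcases Subgroup.eq_bot_or_eq_top_of_prime_card ι.ker with h | h
    · exact h
    · exfalso
      apply hι
      have : z₀ ∈ ι.ker := by rw [h]; exact Subgroup.mem_top _
      exact this
  let F : (E →* Subgroup.center E) → (Abelianization E →* ℂˣ) :=
    fun f => Abelianization.lift (ι.comp f)
  have hF : Function.Injective F := by
    intro f f' hff
    have h1 : ι.comp f = ι.comp f' := Abelianization.lift.injective hff
    apply MonoidHom.ext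
    intro e
    apply hιinj
    exact DFunLike.congr_fun h1 e
  haveI : Finite (Abelianization E) := inferInstanceAs (Finite (E ⧸ commutator E))
  have hcardA : Nat.card (Abelianization E →* ℂˣ) = (commutator E).index :=
    CommGroup.card_monoidHom_of_hasEnoughRootsOfUnity (Abelianization E) ℂ
  have hidxpos : (commutator E).index ≠ 0 := Subgroup.index_ne_zero_of_finite
  haveI : Finite (Abelianization E →* ℂˣ) :=
    Nat.finite_of_card_ne_zero (by rw [hcardA]; exact hidxpos)
  have hle : Nat.card (E →* Subgroup.center E) ≤ (commutator E).index := by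
    rw [← hcardA]; exact Nat.card_le_card_of_injective F hF
  have hrange : (commHomHomLead hcc).range = ⊤ := by
    haveI : Finite (E →* Subgroup.center E) := Finite.of_injective F hF
    rw [← Subgroup.card_eq_iff_eq_top]
    apply le_antisymm (Subgroup.card_le_card_group _)
    have h1 : Nat.card (commHomHomLead hcc).range = (Subgroup.center E).index := by
      rw [← Subgroup.index_ker, hker]
    rw [h1]
    have h2 : (Subgroup.center E).index = (commutator E).index := by rw [hcomm]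
    rw [h2]; exact hle
  let lam : E →* Subgroup.center E := MonoidHom.mk' (fun e => ⟨φ e * e⁻¹, hφ e⟩) (by
    intro e e'
    apply Subtype.ext
    show φ (e * e') * (e * e')⁻¹ = (φ e * e⁻¹) * (φ e' * e'⁻¹)
    have h1 : (φ e' * e'⁻¹) * e⁻¹ = e⁻¹ * (φ e' * e'⁻¹) :=
      (Subgroup.mem_center_iff.mp (hφ e') e⁻¹).symm
    rw [map_mul]
    calc φ e * φ e' * (e * e')⁻¹ = φ e * ((φ e' * e'⁻¹) * e⁻¹) := by group
      _ = φ e * (e⁻¹ * (φ e' * e'⁻¹)) := by rw [h1]
      _ = (φ e * e⁻¹) * (φ e' * e'⁻¹) := by group)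
  have hmem : lam ∈ (commHomHomLead hcc).range := by rw [hrange]; exact Subgroup.mem_top _
  obtain ⟨u, hu⟩ := MonoidHom.mem_range.mp hmem
  refine ⟨u, fun e => ?_⟩
  have h1 : ((commHomLead hcc u e : Subgroup.center E) : E) =
      ((lam e : Subgroup.center E) : E) := by
    have h2 : commHomLead hcc u = lam := hu
    rw [h2]
  rw [commHomLead_apply] at h1
  have h3 : ((lam e : Subgroup.center E) : E) = φ e * e⁻¹ := rfl
  rw [h3] at h1
  exact (mul_right_cancel h1).symm

end Cfsg.Agent.Lib.Lead
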