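import Mathlib
import Cfsg.Prelude.Def_Blocks
import Cfsg.Agent.Lib.Lead.BlockOsima2
import Cfsg.Agent.Lib.Lead.CharBasic

/-!
# The kernel of a block

The kernel of a block is a normal subgroup of order prime to `p`.
-/

set_option autoImplicit false

namespace Cfsg.Agent.Lib.Lead

open scoped ComplexConjugate

universe u

theorem sum_quot_fiber_lead {G : Type*} [Group G] [Fintype G] (N : Subgroup G) [N.Normal]
    [Fintype (G ⧸ N)] (F : G ⧸ N → ℂ) :
    ∑ g : G, F (g : G ⧸ N) = (Nat.card N : ℂ) * ∑ q : G ⧸ N, F q := by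
  classical
  rw [← Finset.sum_fiberwise Finset.univ (fun g : G => (g : G ⧸ N)), Finset.mul_sum]
  apply Finset.sum_congr rfl
  intro q _
  rw [Finset.sum_congr rfl (fun g hg => by rw [(Finset.mem_filter.mp hg).2]),
    Finset.sum_const, nsmul_eq_mul]
  congr 1
  have h := QuotientGroup.card_preimage_mk N ({q} : Set (G ⧸ N))
  have h1 : Nat.card ({q} : Set (G ⧸ N)) = 1 := by simp
  rw [h1, mul_one] at h
  have h2 : Nat.card {g : G // (g : G ⧸ N) = q} = Nat.card N := h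
  rw [← h2, Nat.card_eq_fintype_card, Fintype.card_subtype]

/-- translation by an element of the kernel of a character -/
theorem char_mul_of_ker_lead {G : Type u} [Group G] [Finite G] {ψ : G → ℂ}
    (hψ : Cfsg.IsCharacter G ψ) {k : G} (hk : ψ k = ψ 1) (g : G) : ψ (g * k) = ψ g := by
  obtain ⟨n, ρ, rfl⟩ := hψ
  rw [Representation.char_one] at hk
  have h1 := (char_eq_finrank_iff ρ k).1 hk
  show LinearMap.trace ℂ _ (ρ (g * k)) = LinearMap.trace ℂ _ (ρ g)
  rw [map_mul, h1, ← Module.End.one_eq_id, mul_one]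

/-- the kernel of a set of irreducible characters is a normal subgroup -/
theorem blockKer_subgroup_lead {G : Type u} [Group G] [Finite G]
    (B : Set (Cfsg.IrrCharacter G)) :
    ∃ K : Subgroup G, K.Normal ∧ (K : Set G) = Cfsg.blockKer B := by
  refine ⟨{ carrier := Cfsg.blockKer B
            mul_mem' := ?_
            one_mem' := ?_
            inv_mem' := ?_ }, ?_, rfl⟩
  · intro a b ha hb
    have ha' : ∀ ψ ∈ B, (ψ : G → ℂ) a = (ψ : G → ℂ) 1 := ha
    have hb' : ∀ ψ ∈ B, (ψ : G → ℂ) b = (ψ : G → ℂ) 1 := hb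
    show ∀ ψ ∈ B, (ψ : G → ℂ) (a * b) = (ψ : G → ℂ) 1
    intro ψ hψ
    rw [char_mul_of_ker_lead (isCharacter_of_isIrrCharacter ψ.2) (hb' ψ hψ) a]
    exact ha' ψ hψ
  · show ∀ ψ ∈ B, (ψ : G → ℂ) 1 = (ψ : G → ℂ) 1
    intro ψ _
    rfl
  · intro a ha
    have ha' : ∀ ψ ∈ B, (ψ : G → ℂ) a = (ψ : G → ℂ) 1 := ha
    show ∀ ψ ∈ B, (ψ : G → ℂ) a⁻¹ = (ψ : G → ℂ) 1
    intro ψ hψ
    have h1 := char_mul_of_ker_lead (isCharacter_of_isIrrCharacter ψ.2) (ha' ψ hψ) a⁻¹
    rw [inv_mul_cancel] at h1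
    exact h1.symm
  · constructor
    intro k hk g
    have hk' : ∀ ψ ∈ B, (ψ : G → ℂ) k = (ψ : G → ℂ) 1 := hk
    show ∀ ψ ∈ B, (ψ : G → ℂ) (g * k * g⁻¹) = (ψ : G → ℂ) 1
    intro ψ hψ
    rw [isClassFunction_of_irr ψ.2 k g]
    exact hk' ψ hψ

theorem blockCoeff_mul_ker_lead {G : Type u} [Group G] [Finite G]
    (B : Set (Cfsg.IrrCharacter G)) (g k : G) (hk : k ∈ Cfsg.blockKer B) :
    Cfsg.blockCoeff B (g * k) = Cfsg.blockCoeff B g := by
  have hk' : ∀ ψ ∈ B, (ψ : G → ℂ) k = (ψ : G → ℂ) 1 := hk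
  unfold Cfsg.blockCoeff
  congr 1
  exact finsum_mem_congr rfl (fun ψ hψ => by
    rw [char_mul_of_ker_lead (isCharacter_of_isIrrCharacter ψ.2) (hk' ψ hψ) g])

/-- the sum of the central idempotents of a set of characters is idempotent -/
theorem blockCoeff_conv_lead {G : Type u} [Group G] [Fintype G]
    (B : Set (Cfsg.IrrCharacter G)) (g : G) :
    Cfsg.blockCoeff B g = ∑ x : G, Cfsg.blockCoeff B x * Cfsg.blockCoeff B (x⁻¹ * g) := by
  classical
  have hcl : Cfsg.IsClassFunction G (Cfsg.blockCoeff B) :=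
    fun g h => blockCoeff_classFun_lead B g h
  have hD : (fun y : G => Cfsg.blockCoeff B y -
      ∑ x : G, Cfsg.blockCoeff B x * Cfsg.blockCoeff B (x⁻¹ * y)) = 0 := by
    apply eq_zero_of_orthogonal
    · intro y h
      show Cfsg.blockCoeff B (h * y * h⁻¹) -
          ∑ x : G, Cfsg.blockCoeff B x * Cfsg.blockCoeff B (x⁻¹ * (h * y * h⁻¹)) =
        Cfsg.blockCoeff B y - ∑ x : G, Cfsg.blockCoeff B x * Cfsg.blockCoeff B (x⁻¹ * y)
      have h2 : ∑ x : G, Cfsg.blockCoeff B x * Cfsg.blockCoeff B (x⁻¹ * (h * y * h⁻¹)) =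
          ∑ x : G, Cfsg.blockCoeff B x * Cfsg.blockCoeff B (x⁻¹ * y) :=
        conv_classFun_lead (Cfsg.blockCoeff B) (Cfsg.blockCoeff B) hcl hcl y h
      rw [hcl y h, h2]
    · intro ψ hψ
      have hψc := isIrrCharacter_conj hψ
      obtain ⟨η, hη⟩ : ∃ η : Cfsg.IrrCharacter G, ∀ x, (η : G → ℂ) x = conj (ψ x) :=
        ⟨⟨_, hψc⟩, fun _ => rfl⟩
      obtain ⟨d, hd0, hd⟩ := irr_one η.2
      have hη1 : (η : G → ℂ) 1 ≠ 0 := by
        rw [hd]
        exact_mod_cast hd0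
      have h1 := blockCoeff_sum_lead B η
      have h2 := conv_transform_lead (Cfsg.blockCoeff B) (Cfsg.blockCoeff B) hcl
        (η : G → ℂ) η.2
      have e : ∑ y : G, (Cfsg.blockCoeff B y -
          ∑ x : G, Cfsg.blockCoeff B x * Cfsg.blockCoeff B (x⁻¹ * y)) * conj (ψ y) = 0 := by
        have e1 : ∀ y : G, (Cfsg.blockCoeff B y -
            ∑ x : G, Cfsg.blockCoeff B x * Cfsg.blockCoeff B (x⁻¹ * y)) * conj (ψ y) =
            Cfsg.blockCoeff B y * (η : G → ℂ) y -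
              (∑ x : G, Cfsg.blockCoeff B x * Cfsg.blockCoeff B (x⁻¹ * y)) *
                (η : G → ℂ) y := by
          intro y
          rw [hη y, sub_mul]
        rw [Finset.sum_congr rfl (fun y _ => e1 y), Finset.sum_sub_distrib, h2, h1]
        by_cases hB : η ∈ B
        · rw [if_pos hB, mul_div_assoc, div_self hη1, mul_one, sub_self]
        · rw [if_neg hB, zero_mul, zero_div, sub_zero]
      show (Nat.card G : ℂ)⁻¹ * ∑ y : G, (Cfsg.blockCoeff B y -
        ∑ x : G, Cfsg.blockCoeff B x * Cfsg.blockCoeff B (x⁻¹ * y)) * conj (ψ y) = 0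
      rw [e, mul_zero]
  have hg : Cfsg.blockCoeff B g -
      ∑ x : G, Cfsg.blockCoeff B x * Cfsg.blockCoeff B (x⁻¹ * g) = 0 := congrFun hD g
  exact sub_eq_zero.mp hg

/-- the idempotent of a block is divisible by the order of the kernel of the block -/
theorem blockCoeff_ker_dvd_lead {G : Type u} [Group G] [Fintype G]
    (B : Set (Cfsg.IrrCharacter G)) (K : Subgroup G) [hKn : K.Normal] [Fintype (G ⧸ K)]
    (hK : (K : Set G) = Cfsg.blockKer B) (g : G) :
    Cfsg.blockCoeff B g = (Nat.card K : ℂ) * ∑ q : G ⧸ K,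
      Cfsg.blockCoeff B (Quotient.out q) * Cfsg.blockCoeff B ((Quotient.out q)⁻¹ * g) := by
  classical
  have hker : ∀ k : G, k ∈ K → k ∈ Cfsg.blockKer B := by
    intro k hk
    rw [← hK]
    exact hk
  have hconst : ∀ x : G, Cfsg.blockCoeff B (Quotient.out (x : G ⧸ K)) *
      Cfsg.blockCoeff B ((Quotient.out (x : G ⧸ K))⁻¹ * g) =
      Cfsg.blockCoeff B x * Cfsg.blockCoeff B (x⁻¹ * g) := by
    intro x
    obtain ⟨h, hh⟩ := QuotientGroup.mk_out_eq_mul K x
    rw [hh, blockCoeff_mul_ker_lead B x h (hker h h.2)]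
    have e : (x * (h : G))⁻¹ * g = x⁻¹ * g * (g⁻¹ * x * (h : G)⁻¹ * x⁻¹ * g) := by group
    have hk2 : g⁻¹ * x * (h : G)⁻¹ * x⁻¹ * g ∈ K := by
      have h1 : (g⁻¹ * x) * (h : G)⁻¹ * (g⁻¹ * x)⁻¹ ∈ K :=
        hKn.conj_mem _ (K.inv_mem h.2) _
      have e2 : (g⁻¹ * x) * (h : G)⁻¹ * (g⁻¹ * x)⁻¹ = g⁻¹ * x * (h : G)⁻¹ * x⁻¹ * g := by
        group
      rw [e2] at h1
      exact h1
    rw [e, blockCoeff_mul_ker_lead B _ _ (hker _ hk2)]
  rw [blockCoeff_conv_lead B g, ← sum_quot_fiber_lead K (fun q : G ⧸ K =>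
    Cfsg.blockCoeff B (Quotient.out q) * Cfsg.blockCoeff B ((Quotient.out q)⁻¹ * g))]
  apply Finset.sum_congr rfl
  intro x _
  exact (hconst x).symm

/-- the kernel of a block has order prime to `p` -/
theorem blockKer_coprime_lead {G : Type u} [Group G] [Fintype G] (p : ℕ) (hp : p.Prime)
    (M : Ideal Cfsg.AlgInt) (hMprime : M.IsPrime) (hpM : (p : Cfsg.AlgInt) ∈ M)
    (χ₀ : Cfsg.IrrCharacter G) (K : Subgroup G) [hKn : K.Normal]
    (hK : (K : Set G) = Cfsg.blockKer (Cfsg.blockOf M (χ₀ : G → ℂ))) :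
    ¬ p ∣ Nat.card K := by
  classical
  haveI : Fintype (G ⧸ K) := Fintype.ofFinite _
  intro hdvd
  obtain ⟨t, ht⟩ := hdvd
  have hKM : ((Nat.card K : ℕ) : Cfsg.AlgInt) ∈ M := by
    rw [ht, Nat.cast_mul]
    exact M.mul_mem_right _ hpM
  obtain ⟨g, hg⟩ := exists_defectClass_lead p hp M hMprime hpM χ₀
  unfold Cfsg.IsDefectClass at hg
  apply hg.2.1
  rw [blockCoeff_ker_dvd_lead _ K hK g, mul_comm]
  apply memLocalIdeal_mul_ring_lead hMprime
  · apply memLocalRing_sum_lead hMprime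
    intro q _
    exact memLocalRing_mul_lead hMprime (osima_lead p hp M hMprime hpM χ₀ _)
      (osima_lead p hp M hMprime hpM χ₀ _)
  · exact memLocalIdeal_of_mem_lead hMprime.ne_top _ hKM

end Cfsg.Agent.Lib.Lead
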