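import Mathlib
import Cfsg.Prelude.Def_Characters
import Cfsg.Agent.Lib.Lead.BrauerInd
import Cfsg.Agent.Lib.Lead.CharNormal
import Cfsg.Agent.Lib.Lead.CharInt
import Cfsg.Agent.Lib.Lead.CharCongr
import Cfsg.Agent.S0164

set_option autoImplicit false

namespace Cfsg.Agent.Lib.Lead

open scoped ComplexConjugate

universe u

theorem normal_of_preg {E : Type*} [Group E] {p : ℕ} (Q : Subgroup E)
    (hQ : ∀ y : E, y ∈ Q ↔ ¬ p ∣ orderOf y) : Q.Normal := by
  constructor
  intro n hn g
  rw [hQ] at hn ⊢
  have h1 : orderOf (g * n * g⁻¹) = orderOf n := MulEquiv.orderOf_eq (MulAut.conj g) n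
  rw [h1]; exact hn

/-- in an elementary group the `p`-regular elements form a subgroup of `p`-power index `p ^ b`,
and `p ^ b` divides the order of the centralizer of each `p`-regular element -/
theorem exists_preg_subgroup {E : Type u} [Group E] [Finite E] (p : ℕ) [hp : Fact p.Prime]
    (q : ℕ) (hq : q.Prime) (hE : Cfsg.IsElementary q E) :
    ∃ Q : Subgroup E, (∀ y : E, y ∈ Q ↔ ¬ p ∣ orderOf y) ∧
      ∃ b : ℕ, Q.index = p ^ b ∧
        ∀ y ∈ Q, p ^ b ∣ Nat.card (Subgroup.centralizer ({y} : Set E)) := by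
  obtain ⟨x, hx, hcop, k, hk⟩ := hE
  have hZcen : Subgroup.zpowers x ≤ Subgroup.center E := by
    rw [Subgroup.zpowers_le]; exact hx
  by_cases hqp : q = p
  · rw [hqp] at hcop hk
    haveI hZn : (Subgroup.zpowers x).Normal := by
      constructor
      intro n hn g
      have h1 : g * n * g⁻¹ = n := by
        have h2 := Subgroup.mem_center_iff.mp (hZcen hn) g
        rw [h2]; group
      rw [h1]; exact hn
    refine ⟨Subgroup.zpowers x, ?_, k, hk, ?_⟩
    · intro y
      constructor
      · intro hy hdvd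
        have h1 : orderOf y ∣ orderOf x := orderOf_dvd_of_mem_zpowers hy
        have h2 : p ∣ orderOf x := dvd_trans hdvd h1
        have h3 : p ∣ Nat.gcd (orderOf x) p := Nat.dvd_gcd h2 dvd_rfl
        rw [Nat.Coprime.gcd_eq_one hcop] at h3
        exact hp.out.one_lt.ne' (Nat.dvd_one.mp h3)
      · intro hy
        have h1 : orderOf (QuotientGroup.mk' (Subgroup.zpowers x) y) ∣ orderOf y :=
          orderOf_dvd_of_pow_eq_one (by rw [← map_pow, pow_orderOf_eq_one, map_one])
        have h2 : orderOf (QuotientGroup.mk' (Subgroup.zpowers x) y) ∣ p ^ k := by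
          have h3 := orderOf_dvd_natCard (QuotientGroup.mk' (Subgroup.zpowers x) y)
          rw [← Subgroup.index_eq_card, hk] at h3
          exact h3
        obtain ⟨i, -, hi⟩ := (Nat.dvd_prime_pow hp.out).mp h2
        have hi0 : i = 0 := by
          by_contra hne
          apply hy
          exact dvd_trans (by rw [hi]; exact dvd_pow_self p hne) h1
        rw [hi0, pow_zero, orderOf_eq_one_iff] at hi
        exact (QuotientGroup.eq_one_iff y).mp hi
    · intro y hy
      have hyc : y ∈ Subgroup.center E := hZcen hy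
      have htop : Subgroup.centralizer ({y} : Set E) = ⊤ := by
        rw [eq_top_iff]
        intro g _
        rw [Subgroup.mem_centralizer_iff]
        intro h hh
        rw [Set.mem_singleton_iff] at hh
        rw [hh]
        exact (Subgroup.mem_center_iff.mp hyc g).symm
      rw [htop, Subgroup.card_top, ← Subgroup.card_mul_index (Subgroup.zpowers x), hk]
      exact dvd_mul_left _ _
  · have hEpos : Nat.card E ≠ 0 := Nat.card_pos.ne'
    obtain ⟨n, hndef⟩ : ∃ n : ℕ, n = (Subgroup.center E).index := ⟨_, rfl⟩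
    have hnq : ∃ j : ℕ, n = q ^ j := by
      have h1 : (Subgroup.center E).index ∣ (Subgroup.zpowers x).index :=
        Subgroup.index_dvd_of_le hZcen
      rw [hk, ← hndef] at h1
      obtain ⟨j, -, hj⟩ := (Nat.dvd_prime_pow hq).mp h1
      exact ⟨j, hj⟩
    obtain ⟨j, hj⟩ := hnq
    have hpn : ¬ p ∣ n := by
      rw [hj]
      intro h
      have h2 := hp.out.dvd_of_dvd_pow h
      exact hqp ((Nat.prime_dvd_prime_iff_eq hp.out hq).mp h2).symm
    obtain ⟨a, hadef⟩ : ∃ a : ℕ, a = (Nat.card E).factorization p := ⟨_, rfl⟩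
    obtain ⟨M, hMdef⟩ : ∃ M : ℕ, M = Nat.card E / p ^ (Nat.card E).factorization p := ⟨_, rfl⟩
    have hcardE : p ^ a * M = Nat.card E := by
      rw [hMdef, hadef]; exact Nat.ordProj_mul_ordCompl_eq_self (Nat.card E) p
    have hpM : ¬ p ∣ M := by
      rw [hMdef]; exact Nat.not_dvd_ordCompl hp.out hEpos
    obtain ⟨σ, hσ⟩ : ∃ σ : E →* Subgroup.center E,
        ∀ y : E, ((σ y : Subgroup.center E) : E) = (y ^ n) ^ M := by
      have hcomm : ∀ u v : Subgroup.center E, Commute u v := by
        intro u v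
        show u * v = v * u
        apply Subtype.ext
        exact Subgroup.mem_center_iff.mp v.2 (u : E)
      refine ⟨{ toFun := fun y => (MonoidHom.transferCenterPow E y) ^ M
                map_one' := by rw [map_one, one_pow]
                map_mul' := by
                  intro y₁ y₂
                  rw [map_mul, (hcomm (MonoidHom.transferCenterPow E y₁)
                    (MonoidHom.transferCenterPow E y₂)).mul_pow] }, ?_⟩
      intro y
      show (((MonoidHom.transferCenterPow E y) ^ M : Subgroup.center E) : E) = (y ^ n) ^ M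
      rw [Subgroup.coe_pow, MonoidHom.transferCenterPow_apply, hndef]
    refine ⟨σ.ker, ?_, ?_⟩
    · intro y
      rw [MonoidHom.mem_ker]
      have hiff : σ y = 1 ↔ orderOf y ∣ n * M := by
        rw [orderOf_dvd_iff_pow_eq_one, pow_mul, ← hσ y]
        constructor
        · intro h; rw [h]; rfl
        · intro h; exact Subtype.ext h
      rw [hiff]
      constructor
      · intro h hdvd
        rcases (Nat.Prime.dvd_mul hp.out).mp (dvd_trans hdvd h) with h1 | h1
        · exact hpn h1
        · exact hpM h1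
      · intro hy
        have h1 : orderOf y ∣ p ^ a * M := by rw [hcardE]; exact orderOf_dvd_natCard y
        have h2 : Nat.Coprime (orderOf y) (p ^ a) :=
          Nat.Coprime.pow_right a ((Nat.Prime.coprime_iff_not_dvd hp.out).mpr hy).symm
        exact dvd_mul_of_dvd_right (Nat.Coprime.dvd_of_dvd_mul_left h2 h1) n
    · have hpg : IsPGroup p σ.range := by
        rintro ⟨t, y, rfl⟩
        refine ⟨a, Subtype.ext (Subtype.ext ?_)⟩
        show ((((σ y) ^ p ^ a : Subgroup.center E)) : E) = 1
        rw [Subgroup.coe_pow, hσ y, ← pow_mul, ← pow_mul, mul_comm M, hcardE, mul_comm, pow_mul,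
          pow_card_eq_one', one_pow]
      obtain ⟨b, hb⟩ := hpg.exists_card_eq
      refine ⟨b, by rw [Subgroup.index_ker, hb], ?_⟩
      intro y _
      rw [← hb]
      have hle : (σ.range.map (Subgroup.center E).subtype) ≤
          Subgroup.centralizer ({y} : Set E) := by
        rintro _ ⟨c, -, rfl⟩
        rw [Subgroup.mem_centralizer_iff]
        intro h hh
        rw [Set.mem_singleton_iff] at hh
        rw [hh]
        exact Subgroup.mem_center_iff.mp c.2 y
      have hcard : Nat.card (σ.range.map (Subgroup.center E).subtype) = Nat.card σ.range :=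
        Nat.card_congr (σ.range.equivMapOfInjective _
          (Subgroup.center E).subtype_injective).toEquiv.symm
      rw [← hcard]
      exact Subgroup.card_dvd_of_le hle

/-- a criterion for `c · χ` on `p`-regular elements (and `0` elsewhere) to be a generalized
character, via Brauer's characterization of characters -/
theorem preg_genChar {G : Type u} [Group G] [Fintype G] (p : ℕ) [hp : Fact p.Prime]
    (χ : G → ℂ) (hχ : Cfsg.IsCharacter G χ) (c t : ℕ) (hpt : ¬ p ∣ t)
    (hint : ∀ (y : G) (k : ℕ), p ^ k ∣ Nat.card (Subgroup.centralizer ({y} : Set G)) →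
      IsIntegral ℤ ((t : ℂ) * (c : ℂ) * χ y / ((p ^ k : ℕ) : ℂ))) :
    Cfsg.IsGeneralizedCharacter G
      (fun x : G => if p ∣ orderOf x then 0 else (c : ℂ) * χ x) := by
  classical
  have hχcl := isClassFunction_of_isCharacter hχ
  apply Cfsg.Agent.S0164.result
  · intro g h
    show (if p ∣ orderOf (h * g * h⁻¹) then 0 else (c : ℂ) * χ (h * g * h⁻¹)) =
      if p ∣ orderOf g then 0 else (c : ℂ) * χ g
    have h1 : orderOf (h * g * h⁻¹) = orderOf g := MulEquiv.orderOf_eq (MulAut.conj h) g
    rw [h1, hχcl g h]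
  · intro E q hq hEl
    haveI : Fintype E := Fintype.ofFinite _
    haveI : Fintype (Cfsg.IrrCharacter E) := Fintype.ofFinite _
    obtain ⟨Q, hQ, b, hb, hcent⟩ := exists_preg_subgroup p q hq hEl
    haveI hQn : Q.Normal := normal_of_preg Q hQ
    haveI : Fintype Q := Fintype.ofFinite _
    have hθchar : Cfsg.IsCharacter Q (fun y : Q => χ ((y : E) : G)) :=
      isCharacter_restrict Q (isCharacter_restrict E hχ)
    obtain ⟨Φ, hΦdef⟩ : ∃ Φ : E → ℂ, Φ = Cfsg.indFun Q (fun y : Q => χ ((y : E) : G)) :=
      ⟨_, rfl⟩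
    have hΦchar : Cfsg.IsCharacter E Φ := by
      rw [hΦdef]; exact isCharacter_indFun Q _ hθchar
    obtain ⟨nn, hΦexp, hnn⟩ := isCharacter_expansion hΦchar
    have hpb0 : ((p ^ b : ℕ) : ℂ) ≠ 0 := by exact_mod_cast (pow_pos hp.out.pos b).ne'
    have hQ0 : (Nat.card Q : ℂ) ≠ 0 := Nat.cast_ne_zero.mpr Nat.card_pos.ne'
    have hcard : (Nat.card E : ℂ) = (Nat.card Q : ℂ) * ((p ^ b : ℕ) : ℂ) := by
      rw [← hb]; exact_mod_cast (Subgroup.card_mul_index Q).symm
    have hΦin : ∀ e : E, e ∈ Q → Φ e = ((p ^ b : ℕ) : ℂ) * χ (e : G) := by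
      intro e he
      rw [hΦdef]
      have h1 := indFun_normal_apply Q (fun y : Q => χ ((y : E) : G)) ⟨e, he⟩
      have h2 : ∀ g ∈ (Finset.univ : Finset E),
          (fun y : Q => χ ((y : E) : G)) (conjHom Q g ⟨e, he⟩) = χ (e : G) := by
        intro g _
        exact hχcl (e : G) (g : G)
      rw [Finset.sum_congr rfl h2, Finset.sum_const, Finset.card_univ, nsmul_eq_mul,
        ← Nat.card_eq_fintype_card, hcard] at h1
      calc Cfsg.indFun Q (fun y : Q => χ ((y : E) : G)) e
          = (Nat.card Q : ℂ)⁻¹ * ((Nat.card Q : ℂ) * ((p ^ b : ℕ) : ℂ) * χ (e : G)) := h1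
        _ = ((p ^ b : ℕ) : ℂ) * χ (e : G) := by
            rw [← mul_assoc, ← mul_assoc, inv_mul_cancel₀ hQ0, one_mul]
    have hΦout : ∀ e : E, e ∉ Q → Φ e = 0 := by
      intro e he; rw [hΦdef]; exact indFun_normal_not_mem Q _ e he
    have hF : (fun e : E => (fun x : G => if p ∣ orderOf x then 0 else (c : ℂ) * χ x) e) =
        fun e : E => (c : ℂ) / ((p ^ b : ℕ) : ℂ) * Φ e := by
      funext e
      show (if p ∣ orderOf (e : G) then 0 else (c : ℂ) * χ (e : G)) =
        (c : ℂ) / ((p ^ b : ℕ) : ℂ) * Φ e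
      rw [Subgroup.orderOf_coe]
      by_cases he : e ∈ Q
      · rw [if_neg ((hQ e).mp he), hΦin e he, ← mul_assoc, div_mul_cancel₀ _ hpb0]
      · have hdvd : p ∣ orderOf e := by
          by_contra h; exact he ((hQ e).mpr h)
        rw [if_pos hdvd, hΦout e he, mul_zero]
    have hcopQ : Nat.Coprime (p ^ b) (t * Nat.card Q) := by
      apply Nat.Coprime.pow_left
      rw [Nat.Prime.coprime_iff_not_dvd hp.out]
      intro h
      rcases (Nat.Prime.dvd_mul hp.out).mp h with h' | h'
      · exact hpt h'
      · obtain ⟨y, hy⟩ := exists_prime_orderOf_dvd_card' p h'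
        have h10 : ¬ p ∣ orderOf (y : E) := (hQ (y : E)).mp y.2
        rw [Subgroup.orderOf_coe, hy] at h10
        exact h10 dvd_rfl
    have hcoef : ∀ ψ : Cfsg.IrrCharacter E, ∃ z : ℤ,
        (c : ℂ) / ((p ^ b : ℕ) : ℂ) * (nn ψ : ℂ) = (z : ℂ) := by
      intro ψ
      have hψchar := isCharacter_of_isIrrCharacter ψ.2
      have hψcl := isClassFunction_of_isCharacter hψchar
      have h1 : Cfsg.classInner Φ (ψ : E → ℂ) = (nn ψ : ℂ) := hnn ψ
      rw [hΦdef, frobenius_reciprocity Q _ _ hψcl] at h1
      have h1' : (Nat.card Q : ℂ)⁻¹ *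
          ∑ y : Q, χ ((y : E) : G) * conj ((ψ : E → ℂ) (y : E)) = (nn ψ : ℂ) := h1
      have h2 : ∑ y : Q, χ ((y : E) : G) * conj ((ψ : E → ℂ) (y : E)) =
          (Nat.card Q : ℂ) * (nn ψ : ℂ) := by
        rw [← h1', ← mul_assoc, mul_inv_cancel₀ hQ0, one_mul]
      have h3 : IsIntegral ℤ (∑ y : Q,
          ((t : ℂ) * (c : ℂ) * χ ((y : E) : G) / ((p ^ b : ℕ) : ℂ)) *
            conj ((ψ : E → ℂ) (y : E))) := by
        apply IsIntegral.sum
        intro y _
        apply IsIntegral.mul
        · apply hint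
          have h4 := hcent (y : E) y.2
          have h5 : Nat.card (Subgroup.centralizer ({(y : E)} : Set E)) ∣
              Nat.card (Subgroup.centralizer ({((y : E) : G)} : Set G)) := by
            have hle : (Subgroup.centralizer ({(y : E)} : Set E)).map E.subtype ≤
                Subgroup.centralizer ({((y : E) : G)} : Set G) := by
              rintro _ ⟨u, hu, rfl⟩
              have hu' : u ∈ Subgroup.centralizer ({(y : E)} : Set E) := hu
              rw [Subgroup.mem_centralizer_iff] at hu' ⊢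
              intro h hh
              rw [Set.mem_singleton_iff] at hh
              rw [hh]
              exact congrArg Subtype.val (hu' (y : E) (Set.mem_singleton _))
            have hc2 : Nat.card ((Subgroup.centralizer ({(y : E)} : Set E)).map E.subtype) =
                Nat.card (Subgroup.centralizer ({(y : E)} : Set E)) :=
              Nat.card_congr ((Subgroup.centralizer ({(y : E)} : Set E)).equivMapOfInjective _
                E.subtype_injective).toEquiv.symm
            rw [← hc2]
            exact Subgroup.card_dvd_of_le hle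
          exact dvd_trans h4 h5
        · have h6 : conj ((ψ : E → ℂ) (y : E)) = (ψ : E → ℂ) ((y : E)⁻¹) :=
            (isCharacter_inv hψchar (y : E)).symm
          rw [h6]
          exact isIntegral_isCharacter hψchar _
      have h7 : ∑ y : Q, ((t : ℂ) * (c : ℂ) * χ ((y : E) : G) / ((p ^ b : ℕ) : ℂ)) *
            conj ((ψ : E → ℂ) (y : E))
          = (((t * c * Nat.card Q * nn ψ : ℕ)) : ℂ) / ((p ^ b : ℕ) : ℂ) := by
        have h8 : ∀ y ∈ (Finset.univ : Finset Q),
            ((t : ℂ) * (c : ℂ) * χ ((y : E) : G) / ((p ^ b : ℕ) : ℂ)) *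
              conj ((ψ : E → ℂ) (y : E))
            = ((t : ℂ) * (c : ℂ) / ((p ^ b : ℕ) : ℂ)) *
              (χ ((y : E) : G) * conj ((ψ : E → ℂ) (y : E))) := by
          intro y _
          ring
        rw [Finset.sum_congr rfl h8, ← Finset.mul_sum, h2]
        push_cast
        ring
      rw [h7] at h3
      have h9 := dvd_of_isIntegral_div (t * c * Nat.card Q * nn ψ) (p ^ b)
        (pow_pos hp.out.pos b).ne' h3
      have h11 : p ^ b ∣ c * nn ψ := by
        have e : t * c * Nat.card Q * nn ψ = (t * Nat.card Q) * (c * nn ψ) := by ring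
        rw [e] at h9
        exact Nat.Coprime.dvd_of_dvd_mul_left hcopQ h9
      obtain ⟨z, hz⟩ := h11
      refine ⟨(z : ℤ), ?_⟩
      have e2 : (c : ℂ) * (nn ψ : ℂ) = ((p ^ b : ℕ) : ℂ) * (z : ℂ) := by exact_mod_cast hz
      rw [div_mul_eq_mul_div, e2, mul_div_cancel_left₀ _ hpb0]
      simp
    choose zf hzf using hcoef
    have hfin : (fun e : E => (c : ℂ) / ((p ^ b : ℕ) : ℂ) * Φ e) =
        ∑ ψ : Cfsg.IrrCharacter E, ((zf ψ : ℤ) : ℂ) • (ψ : E → ℂ) := by
      funext e
      rw [hΦexp, Finset.sum_apply, Finset.sum_apply, Finset.mul_sum]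
      apply Finset.sum_congr rfl
      intro ψ _
      rw [Pi.smul_apply, Pi.smul_apply, smul_eq_mul, smul_eq_mul, ← mul_assoc, hzf ψ]
    show Cfsg.IsGeneralizedCharacter E
      (fun e : E => (fun x : G => if p ∣ orderOf x then 0 else (c : ℂ) * χ x) e)
    rw [hF, hfin]
    apply isGenChar_sum
    intro ψ _
    exact isGenChar_zsmul_lead _ (isGenChar_of_char (isCharacter_of_isIrrCharacter ψ.2))

end Cfsg.Agent.Lib.Lead
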