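import Mathlib
import Cfsg.Agent.Lib.Lead.NormalChain
import Cfsg.Agent.Lib.Helper3.PGroup
import Cfsg.Agent.S0130

set_option autoImplicit false

namespace Cfsg.Agent.Lib.Lead

/-- the centralizer of a normal subgroup of order `p²` of a `p`-group has index dividing `p` -/
theorem index_centralizer_dvd_of_card_sq {P : Type*} [Group P] [Finite P] {p : ℕ} [Fact p.Prime]
    (hP : IsPGroup p P) (U : Subgroup P) [hUn : U.Normal] (hU : Nat.card U = p ^ 2) :
    (Subgroup.centralizer (U : Set P)).index ∣ p := by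
  classical
  have hp' : p.Prime := Fact.out
  have hpsq : p < p ^ 2 := by
    calc p = p ^ 1 := (pow_one p).symm
      _ < p ^ 2 := Nat.pow_lt_pow_right hp'.one_lt (by norm_num)
  obtain ⟨B, hBn, hBA, hBc⟩ := exists_normal_le_card_pow hP U 1 (by
    rw [hU]; exact Nat.pow_le_pow_right hp'.pos (by norm_num))
  rw [pow_one] at hBc
  haveI := hBn
  have hBZ : B ≤ Subgroup.center P := normal_card_prime_le_center hP B hBc
  have hAB : ∀ a ∈ U, ∀ g : P, g * a * g⁻¹ * a⁻¹ ∈ B := by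
    obtain ⟨π, hπ⟩ : ∃ π : P →* P ⧸ B, π = QuotientGroup.mk' B := ⟨_, rfl⟩
    have hker : ∀ g : P, π g = 1 ↔ g ∈ B := by
      intro g; rw [hπ]; exact QuotientGroup.eq_one_iff g
    have hsurj : Function.Surjective π := by rw [hπ]; exact QuotientGroup.mk'_surjective B
    obtain ⟨D, hDdef⟩ : ∃ D : Subgroup P, D = U ⊓ (Subgroup.center (P ⧸ B)).comap π :=
      ⟨_, rfl⟩
    have hBD : B ≤ D := by
      rw [hDdef]
      refine le_inf hBA ?_
      intro b hb
      rw [Subgroup.mem_comap, (hker b).2 hb]; exact Subgroup.one_mem _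
    have hDA : D ≤ U := by rw [hDdef]; exact inf_le_left
    have hne : U.map π ≠ ⊥ := by
      intro h0
      rw [Subgroup.map_eq_bot_iff] at h0
      have h1 : U ≤ B := fun a ha => (hker a).1 (MonoidHom.mem_ker.1 (h0 ha))
      have h2 := Subgroup.card_le_of_le h1
      rw [hU, hBc] at h2
      omega
    haveI : (U.map π).Normal := Subgroup.Normal.map hUn π hsurj
    have hPq : IsPGroup p (P ⧸ B) := hP.to_quotient B
    obtain ⟨z, hzA, hz1, hzZ⟩ :=
      Cfsg.Agent.Lib.Helper3.exists_ne_one_mem_center_of_normal hPq (U.map π) hne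
    obtain ⟨a₁, ha₁, ha₁z⟩ := Subgroup.mem_map.1 hzA
    have ha₁D : a₁ ∈ D := by
      rw [hDdef]
      exact Subgroup.mem_inf.2 ⟨ha₁, Subgroup.mem_comap.2 (by rw [ha₁z]; exact hzZ)⟩
    have ha₁B : a₁ ∉ B := by
      intro hb
      apply hz1
      rw [← ha₁z]; exact (hker a₁).2 hb
    have hDeq : D = U := by
      apply Subgroup.eq_of_le_of_card_ge hDA
      rw [hU]
      obtain ⟨j, hj⟩ := IsPGroup.iff_card.1 (hP.to_subgroup D)
      rw [hj]
      apply Nat.pow_le_pow_right hp'.pos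
      by_contra hlt
      have hj1 : j ≤ 1 := by omega
      have hDle : Nat.card D ≤ Nat.card B := by
        rw [hj, hBc]
        calc p ^ j ≤ p ^ 1 := Nat.pow_le_pow_right hp'.pos hj1
          _ = p := pow_one p
      have hBDeq : B = D := Subgroup.eq_of_le_of_card_ge hBD hDle
      apply ha₁B
      rw [hBDeq]; exact ha₁D
    intro a ha g
    have haD : a ∈ D := by rw [hDeq]; exact ha
    rw [hDdef] at haD
    have hc : π a ∈ Subgroup.center (P ⧸ B) := haD.2
    rw [← hker, map_mul, map_mul, map_mul, map_inv, map_inv,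
      Subgroup.mem_center_iff.1 hc (π g)]
    group
  obtain ⟨a₀, ha₀A, ha₀B⟩ : ∃ a₀ ∈ U, a₀ ∉ B := by
    by_contra hcon
    push Not at hcon
    have h1 : U ≤ B := hcon
    have h2 := Subgroup.card_le_of_le h1
    rw [hU, hBc] at h2
    omega
  have hAeq : B ⊔ Subgroup.zpowers a₀ = U := by
    apply Subgroup.eq_of_le_of_card_ge (sup_le hBA (by rw [Subgroup.zpowers_le]; exact ha₀A))
    rw [hU]
    obtain ⟨j, hj⟩ := IsPGroup.iff_card.1 (hP.to_subgroup (B ⊔ Subgroup.zpowers a₀))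
    rw [hj]
    apply Nat.pow_le_pow_right hp'.pos
    by_contra hlt
    have hj1 : j ≤ 1 := by omega
    have hle : Nat.card ↥(B ⊔ Subgroup.zpowers a₀) ≤ Nat.card B := by
      rw [hj, hBc]
      calc p ^ j ≤ p ^ 1 := Nat.pow_le_pow_right hp'.pos hj1
        _ = p := pow_one p
    have hBeq : B = B ⊔ Subgroup.zpowers a₀ := Subgroup.eq_of_le_of_card_ge le_sup_left hle
    apply ha₀B
    have h5 : a₀ ∈ B ⊔ Subgroup.zpowers a₀ := Subgroup.mem_sup_right (Subgroup.mem_zpowers a₀)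
    rw [← hBeq] at h5
    exact h5
  have hcB : ∀ b ∈ B, ∀ g : P, g * b = b * g := fun b hb g =>
    Subgroup.mem_center_iff.1 (hBZ hb) g
  have hψmul : ∀ g₁ g₂ : P, (g₁ * g₂) * a₀ * (g₁ * g₂)⁻¹ * a₀⁻¹ =
      (g₁ * a₀ * g₁⁻¹ * a₀⁻¹) * (g₂ * a₀ * g₂⁻¹ * a₀⁻¹) := by
    intro g₁ g₂
    obtain ⟨c₂, hc₂⟩ : ∃ c₂ : P, c₂ = g₂ * a₀ * g₂⁻¹ * a₀⁻¹ := ⟨_, rfl⟩
    have hc₂B : c₂ ∈ B := by rw [hc₂]; exact hAB a₀ ha₀A g₂
    have h1 := hcB c₂ hc₂B g₁
    have h2 := hcB c₂ hc₂B (g₁ * a₀ * g₁⁻¹ * a₀⁻¹)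
    rw [← hc₂, h2]
    calc g₁ * g₂ * a₀ * (g₁ * g₂)⁻¹ * a₀⁻¹
        = (g₁ * (g₂ * a₀ * g₂⁻¹ * a₀⁻¹)) * a₀ * g₁⁻¹ * a₀⁻¹ := by group
      _ = (g₁ * c₂) * a₀ * g₁⁻¹ * a₀⁻¹ := by rw [← hc₂]
      _ = (c₂ * g₁) * a₀ * g₁⁻¹ * a₀⁻¹ := by rw [h1]
      _ = c₂ * (g₁ * a₀ * g₁⁻¹ * a₀⁻¹) := by group
  obtain ⟨ψ, hψ⟩ : ∃ ψ : P →* B, ∀ g : P,
      ((ψ g : B) : P) = g * a₀ * g⁻¹ * a₀⁻¹ :=
    ⟨MonoidHom.mk' (fun g : P => (⟨g * a₀ * g⁻¹ * a₀⁻¹, hAB a₀ ha₀A g⟩ : B))
      (fun g₁ g₂ => Subtype.ext (hψmul g₁ g₂)), fun g => rfl⟩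
  have hle : ψ.ker ≤ Subgroup.centralizer (U : Set P) := by
    intro k hk
    have h1 : ψ k = 1 := MonoidHom.mem_ker.1 hk
    have h2 := hψ k
    rw [h1] at h2
    have h3 : k * a₀ * k⁻¹ * a₀⁻¹ = 1 := h2.symm
    have hka : k * a₀ = a₀ * k := by
      have h4 : k * a₀ = (k * a₀ * k⁻¹ * a₀⁻¹) * (a₀ * k) := by group
      rw [h3, one_mul] at h4
      exact h4
    rw [Subgroup.mem_centralizer_iff]
    intro a ha
    rw [← hAeq, Subgroup.normal_mul, Set.mem_mul] at ha
    obtain ⟨b, hb, w, hw, rfl⟩ := ha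
    obtain ⟨j, rfl⟩ := Subgroup.mem_zpowers_iff.1 hw
    have e1 : k * b = b * k := hcB b hb k
    have e2 : a₀ ^ j * k = k * a₀ ^ j := (Commute.zpow_left hka.symm j).eq
    calc b * a₀ ^ j * k = b * (a₀ ^ j * k) := by group
      _ = b * (k * a₀ ^ j) := by rw [e2]
      _ = (b * k) * a₀ ^ j := by group
      _ = (k * b) * a₀ ^ j := by rw [e1]
      _ = k * (b * a₀ ^ j) := by group
  have h1 : (Subgroup.centralizer (U : Set P)).index ∣ ψ.ker.index :=
    Subgroup.index_dvd_of_le hle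
  rw [Subgroup.index_ker] at h1
  have h2 : Nat.card ψ.range ∣ p := by
    rw [← hBc]; exact Subgroup.card_subgroup_dvd_card ψ.range
  exact h1.trans h2

/-- if the elements of order `p` centralizing a small normal subgroup `A` lie in `A`, then
abelian subgroups of exponent `p` have order at most `p²` -/
theorem card_le_sq_of_omega_le {P : Type*} [Group P] [Finite P] {p : ℕ} [Fact p.Prime]
    (hP : IsPGroup p P) (A : Subgroup P) [hAn : A.Normal]
    (hΩ : ∀ x ∈ Subgroup.centralizer (A : Set P), x ^ p = 1 → x ∈ A)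
    (hA2 : Nat.card A ≤ p ^ 2) (E : Subgroup P) (hE : IsMulCommutative E)
    (hEe : ∀ e ∈ E, e ^ p = 1) : Nat.card E ≤ p ^ 2 := by
  classical
  have hp' : p.Prime := Fact.out
  haveI := hE
  obtain ⟨C, hCdef⟩ : ∃ C : Subgroup P, C = Subgroup.centralizer (A : Set P) := ⟨_, rfl⟩
  rw [← hCdef] at hΩ
  by_cases hEC : E ≤ C
  · have hEA : E ≤ A := fun e he => hΩ e (hEC he) (hEe e he)
    exact (Subgroup.card_le_of_le hEA).trans hA2
  have hAcard : Nat.card A = p ^ 2 := by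
    obtain ⟨k, hk⟩ := IsPGroup.iff_card.1 (hP.to_subgroup A)
    have hk2 : k ≤ 2 := by
      rw [hk] at hA2
      exact (Nat.pow_le_pow_iff_right hp'.one_lt).1 hA2
    have hAcen : ¬ A ≤ Subgroup.center P := by
      intro hle
      apply hEC
      intro e he
      rw [hCdef, Subgroup.mem_centralizer_iff]
      intro a ha
      exact (Subgroup.mem_center_iff.1 (hle ha) e).symm
    interval_cases k
    · exfalso; apply hAcen
      rw [pow_zero] at hk
      rw [Subgroup.eq_bot_of_card_eq A hk]; exact bot_le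
    · exfalso; apply hAcen
      rw [pow_one] at hk
      exact normal_card_prime_le_center hP A hk
    · exact hk
  have hidx : C.index ∣ p := by
    rw [hCdef]; exact index_centralizer_dvd_of_card_sq hP A hAcard
  haveI hCn : C.Normal := by rw [hCdef]; infer_instance
  have hrel : C.relIndex E ∣ p :=
    (Subgroup.relIndex_dvd_index_of_normal (H := C) (K := E)).trans hidx
  obtain ⟨K, hKdef⟩ : ∃ K : Subgroup P, K = E ⊓ C := ⟨_, rfl⟩
  have hKA : K ≤ A := by
    rw [hKdef]; intro k hk; exact hΩ k hk.2 (hEe k hk.1)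
  have hKne : K ≠ A := by
    intro hKA'
    apply hEC
    intro e he
    rw [hCdef, Subgroup.mem_centralizer_iff]
    intro a ha
    have haE : a ∈ E := by
      have h5 : a ∈ K := by rw [hKA']; exact ha
      rw [hKdef] at h5
      exact h5.1
    exact setLike_mul_comm (s := E) haE he
  have hKp : Nat.card K ≤ p := by
    have hd : Nat.card K ∣ p ^ 2 := by rw [← hAcard]; exact Subgroup.card_dvd_of_le hKA
    obtain ⟨j, hj2, hj⟩ := (Nat.dvd_prime_pow hp').1 hd
    have hjne : j ≠ 2 := by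
      rintro rfl
      exact hKne (Subgroup.eq_of_le_of_card_ge hKA (by rw [hj, hAcard]))
    rw [hj]
    calc p ^ j ≤ p ^ 1 := Nat.pow_le_pow_right hp'.pos (by omega)
      _ = p := pow_one p
  have h1 := Subgroup.relIndex_mul_relIndex (H := ⊥) (K := E ⊓ C) (L := E) bot_le inf_le_left
  rw [Subgroup.relIndex_bot_left, Subgroup.relIndex_bot_left, Subgroup.inf_relIndex_left,
    ← hKdef] at h1
  rw [← h1, pow_two]
  exact Nat.mul_le_mul hKp (Nat.le_of_dvd hp'.pos hrel)

/-- a `2`-group of rank at least three has a subgroup `M` of index at most two all of whose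
involutions centralize an elementary abelian subgroup of order `8` -/
theorem two_group_rank3 {P : Type*} [Group P] [Finite P] (hP : IsPGroup 2 P)
    (E : Subgroup P) (hE8 : Nat.card E = 8) (hEe : ∀ e ∈ E, e ^ 2 = 1) :
    ∃ M : Subgroup P, (M = ⊤ ∨ M.index = 2) ∧ ∀ y ∈ M, y ^ 2 = 1 →
      ∃ F : Subgroup P, Nat.card F = 8 ∧ (∀ f ∈ F, f ^ 2 = 1) ∧ ∀ f ∈ F, f * y = y * f := by
  classical
  haveI : Fact (Nat.Prime 2) := ⟨Nat.prime_two⟩
  have hEcomm : IsMulCommutative E := by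
    apply Subgroup.le_centralizer_iff_isMulCommutative.1
    intro x hx
    rw [Subgroup.mem_centralizer_iff]
    intro y hy
    have h1 := hEe x hx
    have h2 := hEe y hy
    have h3 := hEe (y * x) (E.mul_mem hy hx)
    have hx' : x⁻¹ = x := inv_eq_of_mul_eq_one_left (by rw [← pow_two]; exact h1)
    have hy' : y⁻¹ = y := inv_eq_of_mul_eq_one_left (by rw [← pow_two]; exact h2)
    have hxy : (y * x)⁻¹ = y * x := inv_eq_of_mul_eq_one_left (by rw [← pow_two]; exact h3)
    calc y * x = (y * x)⁻¹ := hxy.symm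
      _ = x⁻¹ * y⁻¹ := mul_inv_rev y x
      _ = x * y := by rw [hx', hy']
  haveI := hEcomm
  obtain ⟨A, -, hAmax⟩ := (Set.toFinite
    {B : Subgroup P | B.Normal ∧ IsMulCommutative B ∧ ∀ b ∈ B, b ^ 2 ^ 2 = 1}).exists_le_maximal
    (a := ⊥) ⟨inferInstance, Subgroup.le_centralizer_iff_isMulCommutative.1 bot_le,
      fun b hb => by rw [Subgroup.mem_bot.1 hb, one_pow]⟩
  obtain ⟨⟨hAn, hAc, hAe⟩, hAmax'⟩ := hAmax
  haveI := hAn
  haveI := hAc
  have hΩ4 : ∀ x ∈ Subgroup.centralizer (A : Set P), x ^ 2 ^ 2 = 1 → x ∈ A := by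
    intro x hx hx4
    exact Cfsg.Agent.S0130.result hP 2 (by norm_num) A hAc hAe
      (fun B hBn hBc hBe hAB => le_antisymm (hAmax' ⟨hBn, hBc, hBe⟩ hAB) hAB) x hx hx4
  have hΩ : ∀ x ∈ Subgroup.centralizer (A : Set P), x ^ 2 = 1 → x ∈ A := by
    intro x hx hx2
    apply hΩ4 x hx
    rw [pow_two (2 : ℕ), pow_mul, hx2, one_pow]
  have hA8 : 2 ^ 2 < Nat.card A := by
    by_contra hle
    push Not at hle
    have h8 := card_le_sq_of_omega_le hP A hΩ hle E hEcomm hEe
    rw [hE8] at h8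
    norm_num at h8
  obtain ⟨V, hV⟩ : ∃ V : Subgroup P, ∀ x, x ∈ V ↔ x ∈ A ∧ x ^ 2 = 1 :=
    ⟨{ carrier := {x | x ∈ A ∧ x ^ 2 = 1}
       one_mem' := ⟨A.one_mem, one_pow 2⟩
       mul_mem' := fun {a b} ha hb => ⟨A.mul_mem ha.1 hb.1, by
         have hc : Commute a b := setLike_mul_comm (s := A) ha.1 hb.1
         rw [hc.mul_pow, ha.2, hb.2, one_mul]⟩
       inv_mem' := fun {a} ha => ⟨A.inv_mem ha.1, by rw [inv_pow, ha.2, inv_one]⟩ },
     fun x => Iff.rfl⟩
  have hVA : V ≤ A := fun x hx => ((hV x).1 hx).1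
  haveI hVn : V.Normal := by
    constructor
    intro v hv g
    rw [hV] at hv ⊢
    exact ⟨hAn.conj_mem v hv.1 g, by rw [conj_pow, hv.2]; group⟩
  have hV4 : 2 ^ 2 ≤ Nat.card V := by
    obtain ⟨sq, hsq⟩ : ∃ sq : A →* A, ∀ a : A, sq a = a ^ 2 :=
      ⟨MonoidHom.mk' (fun a : A => a ^ 2) (fun a b =>
        (show Commute a b from hAc.is_comm.comm a b).mul_pow 2), fun a => rfl⟩
    have hkerV : sq.ker.map A.subtype ≤ V := by
      rintro _ ⟨a, ha, rfl⟩
      rw [hV]
      refine ⟨a.2, ?_⟩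
      have h1 : sq a = 1 := MonoidHom.mem_ker.1 ha
      rw [hsq] at h1
      have h2 := congrArg (Subtype.val) h1
      exact h2
    have hrangeV : sq.range.map A.subtype ≤ V := by
      rintro _ ⟨b, ⟨a, rfl⟩, rfl⟩
      rw [hV]
      refine ⟨(sq a).2, ?_⟩
      rw [hsq]
      show ((a : P) ^ 2) ^ 2 = 1
      rw [← pow_mul]
      exact hAe a a.2
    have hc1 : Nat.card sq.ker ≤ Nat.card V := by
      rw [← Subgroup.card_map_of_injective A.subtype_injective]
      exact Subgroup.card_le_of_le hkerV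
    have hc2 : Nat.card sq.range ≤ Nat.card V := by
      rw [← Subgroup.card_map_of_injective A.subtype_injective]
      exact Subgroup.card_le_of_le hrangeV
    have hc3 := Subgroup.card_mul_index sq.ker
    rw [Subgroup.index_ker] at hc3
    obtain ⟨j, hj⟩ := IsPGroup.iff_card.1 (hP.to_subgroup V)
    rw [hj]
    apply Nat.pow_le_pow_right (by norm_num)
    by_contra hlt
    have hj1 : j ≤ 1 := by omega
    have hV2 : Nat.card V ≤ 2 := by
      rw [hj]
      calc 2 ^ j ≤ 2 ^ 1 := Nat.pow_le_pow_right (by norm_num) hj1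
        _ = 2 := pow_one 2
    have h4 : Nat.card A ≤ 2 * 2 := by
      rw [← hc3]
      exact Nat.mul_le_mul (hc1.trans hV2) (hc2.trans hV2)
    norm_num at hA8
    omega
  obtain ⟨U, hUn, hUV, hUc⟩ := exists_normal_le_card_pow hP V 2 hV4
  haveI := hUn
  have hUe : ∀ u ∈ U, u ^ 2 = 1 := fun u hu => ((hV u).1 (hUV hu)).2
  obtain ⟨M, hMdef⟩ : ∃ M : Subgroup P, M = Subgroup.centralizer (U : Set P) := ⟨_, rfl⟩
  have hMU : ∀ m ∈ M, ∀ u ∈ U, u * m = m * u := by
    intro m hm u hu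
    rw [hMdef, Subgroup.mem_centralizer_iff] at hm
    exact hm u hu
  have hMidx : M.index ∣ 2 := by
    rw [hMdef]; exact index_centralizer_dvd_of_card_sq hP U hUc
  haveI hMn : M.Normal := by rw [hMdef]; infer_instance
  have hX : ∃ e ∈ E, e ∈ M ∧ e ∉ U := by
    by_contra hcon
    push Not at hcon
    have hEM : E ⊓ M ≤ U := fun e he => hcon e he.1 he.2
    have h1 := Subgroup.relIndex_mul_relIndex (H := ⊥) (K := E ⊓ M) (L := E) bot_le inf_le_left
    rw [Subgroup.relIndex_bot_left, Subgroup.relIndex_bot_left, Subgroup.inf_relIndex_left,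
      hE8] at h1
    have hrel : M.relIndex E ≤ 2 := Nat.le_of_dvd (by norm_num)
      ((Subgroup.relIndex_dvd_index_of_normal (H := M) (K := E)).trans hMidx)
    have h4 : 4 ≤ Nat.card ↥(E ⊓ M) := by
      by_contra hlt
      push Not at hlt
      have : Nat.card ↥(E ⊓ M) * M.relIndex E ≤ 3 * 2 := Nat.mul_le_mul (by omega) hrel
      omega
    have hEMU : E ⊓ M = U := Subgroup.eq_of_le_of_card_ge hEM (by rw [hUc]; exact h4)
    have hUE : U ≤ E := by rw [← hEMU]; exact inf_le_left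
    have hEM' : E ≤ M := by
      intro e he
      rw [hMdef, Subgroup.mem_centralizer_iff]
      intro u hu
      exact setLike_mul_comm (s := E) (hUE hu) he
    have h5 : E ⊓ M = E := inf_eq_left.2 hEM'
    rw [h5] at hEMU
    rw [hEMU, hUc] at hE8
    norm_num at hE8
  obtain ⟨e, heE, heM, heU⟩ := hX
  refine ⟨M, ?_, ?_⟩
  · rcases (Nat.dvd_prime Nat.prime_two).1 hMidx with h | h
    · left; exact Subgroup.index_eq_one.1 h
    · right; exact h
  · intro y hyM hy2
    obtain ⟨t, htM, htU, ht2, hty⟩ : ∃ t, t ∈ M ∧ t ∉ U ∧ t ^ 2 = 1 ∧ t * y = y * t := by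
      by_cases hyU : y ∈ U
      · exact ⟨e, heM, heU, hEe e heE, (hMU e heM y hyU).symm⟩
      · exact ⟨y, hyM, hyU, hy2, rfl⟩
    have ht1 : t ≠ 1 := fun h => htU (h ▸ U.one_mem)
    have htord : orderOf t = 2 := orderOf_eq_prime ht2 ht1
    refine ⟨Subgroup.zpowers t ⊔ U, ?_, ?_, ?_⟩
    · have h1 := Subgroup.relIndex_mul_relIndex (H := ⊥) (K := U)
        (L := Subgroup.zpowers t ⊔ U) bot_le le_sup_right
      rw [Subgroup.relIndex_bot_left, Subgroup.relIndex_bot_left, Subgroup.relIndex_sup_right,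
        hUc] at h1
      have h2 : U.relIndex (Subgroup.zpowers t) ∣ 2 := by
        have h3 := Subgroup.relIndex_dvd_card U (Subgroup.zpowers t)
        rwa [Nat.card_zpowers, htord] at h3
      rcases (Nat.dvd_prime Nat.prime_two).1 h2 with h | h
      · exfalso
        apply htU
        exact Subgroup.relIndex_eq_one.1 h (Subgroup.mem_zpowers t)
      · rw [h] at h1
        rw [← h1]; norm_num
    · intro f hf
      rw [← SetLike.mem_coe, Subgroup.mul_normal, Set.mem_mul] at hf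
      obtain ⟨w, hw, u, hu, rfl⟩ := hf
      obtain ⟨j, rfl⟩ := Subgroup.mem_zpowers_iff.1 hw
      have hc : Commute (t ^ j) u := Commute.zpow_left (hMU t htM u hu).symm j
      rw [hc.mul_pow, hUe u hu, mul_one, ← zpow_natCast, ← zpow_mul, mul_comm, zpow_mul,
        zpow_natCast, ht2, one_zpow]
    · intro f hf
      rw [← SetLike.mem_coe, Subgroup.mul_normal, Set.mem_mul] at hf
      obtain ⟨w, hw, u, hu, rfl⟩ := hf
      obtain ⟨j, rfl⟩ := Subgroup.mem_zpowers_iff.1 hw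
      have e1 : u * y = y * u := hMU y hyM u hu
      have e2 : t ^ j * y = y * t ^ j := (Commute.zpow_left (show Commute t y from hty) j).eq
      calc t ^ j * u * y = t ^ j * (u * y) := by group
        _ = t ^ j * (y * u) := by rw [e1]
        _ = (t ^ j * y) * u := by group
        _ = (y * t ^ j) * u := by rw [e2]
        _ = y * (t ^ j * u) := by group

end Cfsg.Agent.Lib.Lead
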